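import Cfsg.Prelude.Def_OddOrderLocal
import Cfsg.Agent.H19.PiSeparable

/-!
Three conjugates of a Hall subgroup of a π-solvable group meet in the π-core, given two points with
trivial common stabiliser for coprime solvable actions.
-/

set_option autoImplicit false
open scoped Pointwise

namespace Cfsg.Agent.H76.BaseTwo

open Cfsg.Agent.H19

universe u

/-- Coprime faithful actions of solvable groups have two points with trivial common stabiliser. -/
def TwoPoints : Prop :=
  ∀ (A K : Type u) [Group A] [Finite A] [Group K] [Finite K] [MulDistribMulAction A K]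
    [FaithfulSMul A K], Group.IsSolvable A → (Nat.card A).Coprime (Nat.card K) →
      ∃ x y : K, ∀ a : A, a • x = x → a • y = y → a = 1

variable {G : Type u} [Group G] [Finite G] {π : Set ℕ}

theorem piOr_compl {m : ℕ} (h : PiOrPiPrime π m) : PiOrPiPrime πᶜ m :=
  h.symm.imp id fun h' q hq hd hc => hc (h' q hq hd)

/-- The case of trivial π-core. -/
theorem two_conj_of_core_bot (h2 : TwoPoints.{u}) (hs : HasFactorSeries (PrimePowOrPiPrime π) G)
    {H : Subgroup G} (hH : Cfsg.IsPiHall π H) (hcore : Cfsg.piCore π G = ⊥) :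
    ∃ x y : G, ∀ h ∈ H, x⁻¹ * h * x ∈ H → y⁻¹ * h * y ∈ H → h = 1 := by
  set K := Cfsg.piCore πᶜ G with hK
  have hKn : K.Normal := inferInstance
  have hKπ : ∀ p : ℕ, p.Prime → p ∣ Nat.card K → p ∉ π := fun p hp hd => piCore_isPi πᶜ p hp hd
  have hcop : (Nat.card H).Coprime (Nat.card K) :=
    Nat.coprime_of_dvd fun p hp h1 h2' => hKπ p hp h2' (hH.1 p hp h1)
  have hdisj : H ⊓ K = ⊥ := Subgroup.inf_eq_bot_of_coprime hcop
  have hcent : Subgroup.centralizer (K : Set G) ≤ K := by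
    refine centralizer_piCore_le ?_ (by rw [compl_compl]; exact hcore)
    obtain ⟨n, N, h0, h1, hm, hn, hi⟩ := hs
    exact ⟨n, N, h0, h1, hm, hn, fun i => piOr_compl (hi i).piOr⟩
  have hsol : Group.IsSolvable H :=
    isSolvable_of_piSolvable_pi (hs.subgroup (fun _ _ => PrimePowOrPiPrime.of_dvd) H) hH.1
  letI : MulDistribMulAction H K := MulDistribMulAction.compHom K
    ((MulAut.conjNormal (H := K)).comp H.subtype)
  have hact : ∀ (a : H) (k : K), ((a • k : K) : G) = (a : G) * k * (a : G)⁻¹ := fun a k => rfl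
  haveI : FaithfulSMul H K := ⟨fun {a b} hab => by
    have hmem : ((b⁻¹ * a : H) : G) ∈ H ⊓ K := by
      refine ⟨(b⁻¹ * a).2, hcent (Subgroup.mem_centralizer_iff.2 fun k hk => ?_)⟩
      have h : (b⁻¹ * a) • (⟨k, hk⟩ : K) = ⟨k, hk⟩ := by rw [mul_smul, hab, inv_smul_smul]
      have h' := congrArg Subtype.val h
      rw [hact] at h'
      exact (mul_inv_eq_iff_eq_mul.1 h').symm
    rw [hdisj, Subgroup.mem_bot, OneMemClass.coe_eq_one, inv_mul_eq_one] at hmem
    exact hmem.symm⟩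
  obtain ⟨x, y, hxy⟩ := h2 H K hsol hcop
  refine ⟨x, y, fun h hh hx hy => ?_⟩
  have key : ∀ z : K, (z : G)⁻¹ * h * z ∈ H → (⟨h, hh⟩ : H) • z = z := by
    intro z hz
    have hmem : h⁻¹ * ((z : G)⁻¹ * h * z) ∈ H ⊓ K := by
      refine ⟨H.mul_mem (H.inv_mem hh) hz, ?_⟩
      have e : h⁻¹ * ((z : G)⁻¹ * h * z) = (h⁻¹ * (z : G)⁻¹ * h⁻¹⁻¹) * z := by group
      rw [e]
      exact K.mul_mem (hKn.conj_mem _ (K.inv_mem z.2) _) z.2
    rw [hdisj, Subgroup.mem_bot, inv_mul_eq_one] at hmem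
    refine Subtype.ext ?_
    rw [hact, mul_inv_eq_iff_eq_mul]
    show h * (z : G) = (z : G) * h
    calc h * (z : G) = (z : G) * ((z : G)⁻¹ * h * z) := by group
      _ = (z : G) * h := by rw [← hmem]
  exact congrArg Subtype.val (hxy ⟨h, hh⟩ (key x hx) (key y hy))

/-- Three conjugates of a Hall π-subgroup meet in the π-core. -/
theorem three_conjugates (h2 : TwoPoints.{u}) (hs : HasFactorSeries (PrimePowOrPiPrime π) G)
    {H : Subgroup G} (hH : Cfsg.IsPiHall π H) :
    ∃ x y : G, H ⊓ MulAut.conj x • H ⊓ MulAut.conj y • H = Cfsg.piCore π G := by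
  set O := Cfsg.piCore π G with hO
  haveI hOn : O.Normal := inferInstance
  have hOH : O ≤ H := by
    obtain ⟨g, hg⟩ := piHall_dominant_of_piSolvable hs hH O (piCore_isPi π)
    rwa [conj_smul_normal g O] at hg
  set q := QuotientGroup.mk' O with hq
  have hsurj := QuotientGroup.mk'_surjective O
  have hcore : Cfsg.piCore π (G ⧸ O) = ⊥ := by
    set M := Cfsg.piCore π (G ⧸ O)
    have hle : M.comap q ≤ O := le_piCore (Subgroup.Normal.comap inferInstance q) fun p hp hd =>
      (hp.dvd_mul.1 (card_comap_mk O M ▸ hd)).elim (piCore_isPi π p hp) (piCore_isPi π p hp)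
    rw [← Subgroup.map_comap_eq_self_of_surjective hsurj M, Subgroup.map_eq_bot_iff,
      QuotientGroup.ker_mk']
    exact hle
  have hHq : Cfsg.IsPiHall π (H.map q) :=
    ⟨fun p hp hd => hH.1 p hp (hd.trans (H.card_map_dvd q)),
      fun p hp hpπ hd => hH.2 p hp hpπ (hd.trans (H.index_map_dvd hsurj))⟩
  obtain ⟨X, Y, hXY⟩ := two_conj_of_core_bot h2
    (hs.of_surjective (fun _ _ => PrimePowOrPiPrime.of_dvd) q hsurj) hHq hcore
  obtain ⟨x, rfl⟩ := hsurj X
  obtain ⟨y, rfl⟩ := hsurj Y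
  refine ⟨x, y, le_antisymm ?_ (le_inf (le_inf hOH ?_) ?_)⟩
  · rintro z ⟨⟨hz, hzx⟩, hzy⟩
    have hmem : ∀ w : G, z ∈ MulAut.conj w • H → (q w)⁻¹ * q z * q w ∈ H.map q := by
      intro w hw
      rw [mem_conj_smul] at hw
      exact ⟨_, hw, by simp [map_mul, map_inv, mul_assoc]⟩
    have := hXY (q z) ⟨z, hz, rfl⟩ (hmem x hzx) (hmem y hzy)
    rwa [← MonoidHom.mem_ker, QuotientGroup.ker_mk'] at this
  · rw [← conj_smul_normal x O]
    exact Subgroup.pointwise_smul_le_pointwise_smul_iff.2 hOH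
  · rw [← conj_smul_normal y O]
    exact Subgroup.pointwise_smul_le_pointwise_smul_iff.2 hOH

end Cfsg.Agent.H76.BaseTwo
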