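import Cfsg.Agent.H20.BaseTwo.Reduce
import Cfsg.Agent.H76.BaseTwo.Hall

/-!
Three conjugates of a Hall subgroup meet in the π-core, from the linear base-two theorem.
-/

set_option autoImplicit false
open scoped Pointwise

namespace Cfsg.Agent.H76.BaseTwo

universe u

/-- Two points from the linear theorem. -/
theorem twoPoints_of_main (hmain : H86.BaseTwo.Main.{u}) : TwoPoints.{u} :=
  fun A K _ _ _ _ _ _ hA hcop => H20.BaseTwo.exists_pair hmain hA hcop

/-- Three conjugates of a Hall π-subgroup, from the linear theorem. -/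
theorem three_conjugates_of_main (hmain : H86.BaseTwo.Main.{u}) {G : Type u} [Group G] [Finite G]
    {π : Set ℕ} (hs : H19.HasFactorSeries (H19.PrimePowOrPiPrime π) G) {H : Subgroup G}
    (hH : Cfsg.IsPiHall π H) :
    ∃ x y : G, H ⊓ MulAut.conj x • H ⊓ MulAut.conj y • H = Cfsg.piCore π G :=
  three_conjugates (twoPoints_of_main hmain) hs hH

end Cfsg.Agent.H76.BaseTwo
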